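import Cfsg.Agent.Lib.Helper67.LSF.Defs

/-!
# LSF package [RED] (S5286): every path can be replaced by a reduced path with the same element
-/

set_option autoImplicit false

namespace Cfsg.Agent.Lib.Helper89.LSF

open Cfsg Cfsg.Agent.Lib.Helper67.LSF

universe u

variable {Ω : Type u} [Group Ω] {S : Subgroup Ω}

/-- `σ_i * lam u = lam (φ_i u) * σ_i` for `u ∈ P_i`. -/
theorem red_sigma_lam {F : FusionSystem S} (i : Idx F) (u : i.P) :
    i.σ * lam S ⟨u, (F.le_of_mem i.mem).1 u.2⟩ =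
      lam S ⟨i.φ u, (F.le_of_mem i.mem).2 u⟩ * i.σ :=
  Equiv.ext fun x => i.hσ u x

theorem red_lam_injective : Function.Injective (lam S) := by
  intro s s' h
  have h1 := congrArg (fun f : Equiv.Perm S => f 1) h
  simpa [lam_apply] using h1

theorem red_mem_Lam {F : FusionSystem S} (i : Idx F) (s : S) (h : lam S s ∈ Lam i) :
    (s : Ω) ∈ i.P := by
  obtain ⟨s', hs', h'⟩ := Subgroup.mem_map.mp h
  have h2 := red_lam_injective h'
  subst h2
  exact Subgroup.mem_subgroupOf.mp hs'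

theorem red_mk_cons {X : Type u} (ℓ : X × Bool) {M L : List (X × Bool)}
    (h : FreeGroup.mk M = FreeGroup.mk L) : FreeGroup.mk (ℓ :: M) = FreeGroup.mk (ℓ :: L) := by
  show FreeGroup.mk ([ℓ] ++ M) = FreeGroup.mk ([ℓ] ++ L)
  rw [← FreeGroup.mul_mk, ← FreeGroup.mul_mk, h]

/-- [RED] -/
theorem pkgRed (hInv : PkgInv.{u}) : PkgRed.{u} := by
  intro Ω _ S F L q hp
  obtain ⟨-, hI2, hI3⟩ := hInv S F
  induction hp with
  | nil s => exact ⟨[], Path.nil s, FreeGroup.IsReduced.nil, rfl⟩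
  | a s h ih =>
    obtain ⟨L', hp', hr, hm⟩ := ih
    exact ⟨L', Path.a s hp', hr, hm⟩
  | @t i L q h ih =>
    obtain ⟨L', hp', hr, hm⟩ := ih
    cases L' with
    | nil => exact ⟨_, Path.t i hp', FreeGroup.IsReduced.singleton, red_mk_cons _ hm⟩
    | cons m L'' =>
      obtain ⟨y, b⟩ := m
      by_cases hc : (⟨i, ((q⁻¹ : Equiv.Perm S) : Equiv.Perm S ⧸ Lam i)⟩ : X F) = y → true = b
      · exact ⟨_, Path.t i hp', FreeGroup.isReduced_cons_cons.mpr ⟨hc, hr⟩, red_mk_cons _ hm⟩
      · rw [Classical.not_imp] at hc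
        obtain ⟨hy, hb⟩ := hc
        have hb' : b = false := by
          cases b
          · rfl
          · exact absurd rfl hb
        subst hb'
        subst hy
        obtain ⟨i', s, q₀, hp₀, hx, hq⟩ := hI3 _ L'' q hp'
        rw [Sigma.mk.inj_iff] at hx
        obtain ⟨hii, h2⟩ := hx
        subst hii
        have h3 := QuotientGroup.eq.mp (eq_of_heq h2)
        have h4 : (q⁻¹)⁻¹ * (q₀⁻¹ * i.σ) = lam S s := by
          rw [hq]; group
        rw [h4] at h3
        have hs : (s : Ω) ∈ i.P := red_mem_Lam i s h3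
        have h5 : i.σ * lam S s =
            lam S ⟨i.φ ⟨s, hs⟩, (F.le_of_mem i.mem).2 ⟨s, hs⟩⟩ * i.σ :=
          red_sigma_lam i ⟨s, hs⟩
        have h6 : i.σ * q = lam S ⟨i.φ ⟨s, hs⟩, (F.le_of_mem i.mem).2 ⟨s, hs⟩⟩ * q₀ := by
          calc i.σ * q = (i.σ * lam S s) * i.σ⁻¹ * q₀ := by rw [hq]; group
            _ = lam S ⟨i.φ ⟨s, hs⟩, (F.le_of_mem i.mem).2 ⟨s, hs⟩⟩ * q₀ := by rw [h5]; group
        refine ⟨L'', ?_, hr.infix (List.suffix_cons _ _).isInfix, ?_⟩
        · rw [h6]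
          exact Path.a _ hp₀
        · rw [← red_mk_cons _ hm]
          exact (Quot.sound (FreeGroup.Red.Step.cons_not (b := true))).symm
  | @t' i L q h ih =>
    obtain ⟨L', hp', hr, hm⟩ := ih
    cases L' with
    | nil => exact ⟨_, Path.t' i hp', FreeGroup.IsReduced.singleton, red_mk_cons _ hm⟩
    | cons m L'' =>
      obtain ⟨y, b⟩ := m
      by_cases hc : (⟨i, ((q⁻¹ * i.σ : Equiv.Perm S) : Equiv.Perm S ⧸ Lam i)⟩ : X F) = y →
          false = b
      · exact ⟨_, Path.t' i hp', FreeGroup.isReduced_cons_cons.mpr ⟨hc, hr⟩, red_mk_cons _ hm⟩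
      · rw [Classical.not_imp] at hc
        obtain ⟨hy, hb⟩ := hc
        have hb' : b = true := by
          cases b
          · exact absurd rfl hb
          · rfl
        subst hb'
        subst hy
        obtain ⟨i', s, q₀, hp₀, hx, hq⟩ := hI2 _ L'' q hp'
        rw [Sigma.mk.inj_iff] at hx
        obtain ⟨hii, h2⟩ := hx
        subst hii
        have h3 := QuotientGroup.eq.mp (eq_of_heq h2)
        have h4 : (q⁻¹ * i.σ)⁻¹ * q₀⁻¹ = i.σ⁻¹ * lam S s * i.σ := by
          rw [hq]; group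
        rw [h4] at h3
        obtain ⟨u, -, hu⟩ := Subgroup.mem_map.mp h3
        have h6 : i.σ⁻¹ * q = lam S u * q₀ := by
          rw [hu, hq]; group
        refine ⟨L'', ?_, hr.infix (List.suffix_cons _ _).isInfix, ?_⟩
        · rw [h6]
          exact Path.a _ hp₀
        · rw [← red_mk_cons _ hm]
          exact (Quot.sound (FreeGroup.Red.Step.cons_not_rev (b := true))).symm

end Cfsg.Agent.Lib.Helper89.LSF
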